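import Mathlib
import Cfsg.Agent.U4F.DgB
import Cfsg.Agent.Cl.GFSmall
import Cfsg.Agent.Spor.Comp.Basic

/-!
# Fusion systems on a Sylow 3-subgroup of `U₄(3)`: definitions
-/

set_option autoImplicit false
set_option linter.unusedSectionVars false

namespace Cfsg.Agent.U4X

open Cfsg Cfsg.FusionSystem Cfsg.Agent.Fus Subgroup Cfsg.Agent.U4F Cfsg.Agent.Cl

/-- The field with nine elements. -/
abbrev K9 : Type := GF9

instance : StarRing K9 where
  star x := x * x * x
  star_involutive x := by revert x; decide +kernel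
  star_mul x y := by revert x y; decide +kernel
  star_add x y := by revert x y; decide +kernel

theorem star_def (x : K9) : star x = x * x * x := rfl

/-- A primitive element, `ze ^ 2 = ii`, of norm `-1`. -/
def ze : K9 := TF.prim gf9

/-- A square root of `-1`. -/
def ii : K9 := ze * ze

instance : UF K9 := ⟨inferInstance, ze, by decide +kernel⟩

instance fact3 : Fact (Nat.Prime 3) := ⟨Nat.prime_three⟩

theorem qq_K9 : qq K9 = 3 := by
  rw [qq, Nat.card_eq_fintype_card]; decide +kernel

/-- The norm. -/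
def nn (x : K9) : K9 := x * star x

theorem star_nn (x : K9) : star (nn x) = nn x := by revert x; decide +kernel

theorem nn_ne {x : K9} (h : x ≠ 0) : nn x ≠ 0 := by revert x; decide +kernel

theorem ii_ii : ii * ii = -1 := by decide +kernel
theorem star_ii : star ii = -ii := by decide +kernel
theorem nn_ii : nn ii = 1 := by decide +kernel
theorem nn_ze : nn ze = -1 := by decide +kernel
theorem three_eq : (3 : K9) = 0 := by decide +kernel
theorem fix_cases {t : K9} (h : star t = t) : t = 0 ∨ t = 1 ∨ t = -1 := by revert t; decide +kernel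

/-- The two field automorphisms. -/
def sg (e : Bool) (x : K9) : K9 := cond e (star x) x

def sgE : Bool → K9 ≃+* K9
  | true => starRingAut
  | false => RingEquiv.refl K9

@[simp] theorem sg_true (x : K9) : sg true x = star x := rfl
@[simp] theorem sg_false (x : K9) : sg false x = x := rfl
theorem sgE_apply (e : Bool) (x : K9) : sgE e x = sg e x := by cases e <;> rfl
theorem sg_fix (e : Bool) {x : K9} (h : star x = x) : sg e x = x := by cases e <;> simp [h]

theorem exists_sgE (s : K9 ≃+* K9) : ∃ e, s = sgE e := by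
  have h0 : ∀ x : K9, x = 0 ∨ x = 1 ∨ x = -1 ∨ x = ii ∨ x = -ii ∨ x = 1 + ii ∨ x = 1 - ii ∨ x = -1 + ii ∨
      x = -1 - ii := by decide +kernel
  have h1 : ∀ y : K9, y * y = -1 → y = ii ∨ y = star ii := by decide +kernel
  have h2 : ∀ e, s ii = sgE e ii → s = sgE e := fun e h => RingEquiv.ext fun x => by
    rcases h0 x with rfl | rfl | rfl | rfl | rfl | rfl | rfl | rfl | rfl <;> simp [h]
  rcases h1 (s ii) (by rw [← map_mul, ii_ii, map_neg, map_one]) with h | h
  exacts [⟨false, h2 _ h⟩, ⟨true, h2 _ h⟩]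

/-! ### Automorphisms of `S` -/

/-- The diagonal-field map centralizing `Z`. -/
def df (l : K9) (e : Bool) (g : UG K9) : UG K9 :=
  ⟨⟨g.v.a, l * nn l * sg e g.v.b, nn l * g.v.c, g.v.ha, by rw [star_mul, star_nn, g.v.hc, mul_comm]⟩, l * sg e g.x⟩

/-- The diagonal map inverting `Z`. -/
def ddf (g : UG K9) : UG K9 :=
  ⟨⟨-g.v.a, -(ii * g.v.b), -g.v.c, by simp, by simp⟩, ii * g.x⟩

noncomputable def dl (l : K9) (e : Bool) : MulAut (UG K9) :=
  if h : l = 0 then 1 else (exists_D (sgE e) h (nn_ne h) (star_nn l)).choose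

noncomputable def dd : MulAut (UG K9) :=
  (exists_D (l := ii) (m := -1) (RingEquiv.refl K9) (by decide +kernel) (by decide +kernel) (by simp)).choose

theorem isD_dl {l : K9} (h : l ≠ 0) (e : Bool) : IsD l (nn l) (sgE e) (dl l e) := by
  rw [dl, dif_neg h]; exact (exists_D (sgE e) h (nn_ne h) (star_nn l)).choose_spec

theorem isD_dd : IsD ii (-1) (RingEquiv.refl K9) dd :=
  (exists_D (l := ii) (m := -1) (RingEquiv.refl K9) (by decide +kernel) (by decide +kernel) (by simp)).choose_spec

theorem dl_apply {l : K9} (h : l ≠ 0) (e : Bool) (g : UG K9) : dl l e g = df l e g := by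
  have i := isD_dl h e
  have h1 : ∀ l : K9, l ≠ 0 → l * star l * nn l = 1 := by decide +kernel
  refine UG.ext4 ?_ ?_ ?_ ?_
  · rw [i.a, h1 l h, one_mul, sgE_apply, sg_fix e g.v.ha]; rfl
  · rw [i.b, sgE_apply]; rfl
  · rw [i.c, sgE_apply, sg_fix e g.v.hc]; rfl
  · rw [i.x, sgE_apply]; rfl

theorem dd_apply (g : UG K9) : dd g = ddf g := by
  refine UG.ext4 ?_ ?_ ?_ ?_
  · rw [isD_dd.a, show ii * star ii = 1 from nn_ii]; simp [ddf]
  · rw [isD_dd.b]; simp [ddf]
  · rw [isD_dd.c]; simp [ddf]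
  · rw [isD_dd.x]; simp [ddf]

theorem dl_mem_Dg (l : K9) (e : Bool) : dl l e ∈ Dg K9 := by
  by_cases h : l = 0
  · rw [dl, dif_pos h]; exact one_mem _
  · exact mem_Dg.2 ⟨_, _, _, isD_dl h e⟩

theorem dd_mem_Dg : dd ∈ Dg K9 := mem_Dg.2 ⟨_, _, _, isD_dd⟩

/-! ### Maps of `Q / Z` -/

abbrev M9 : Type := K9 × K9

/-- Additive maps agreeing on a basis agree. -/
theorem ga_ext4 {g h : GA M9} (h1 : g (1, 0) = h (1, 0)) (h2 : g (ze, 0) = h (ze, 0)) (h3 : g (0, 1) = h (0, 1))
    (h4 : g (0, ze) = h (0, ze)) : g = h := LinearEquiv.ext fun v => by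
  have h0 : ∀ v : M9, ∃ a b c d : Fin 3, v = a.1 • ((1, 0) : M9) + b.1 • (ze, 0) + c.1 • (0, 1) + d.1 • (0, ze) := by
    decide +kernel
  obtain ⟨a, b, c, d, rfl⟩ := h0 v
  simp only [map_add, map_nsmul, h1, h2, h3, h4]

/-- The image of `dd`. -/
def db : GA M9 := mkA (fun v => (ii * v.1, -(ii * v.2))) (fun v => (-(ii * v.1), ii * v.2))
  (fun v w => by ext <;> simp <;> ring) (by decide +kernel) (by decide +kernel)

/-- Minus one. -/
def ng : GA M9 := mkA (fun v => -v) (fun v => -v) (fun v w => neg_add v w) neg_neg neg_neg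

def jf (γ : K9) (v : M9) : M9 := (γ * star v.1 + ii * v.2, (nn γ + 1) * ii * v.1 + γ * star v.2)

/-- The reflection with parameter `γ`. -/
def jt (γ : K9) : GA M9 := mkA (jf γ) (fun v => -jf γ v) (fun v w => by ext <;> simp [jf] <;> ring)
  (by revert γ; decide +kernel) (by revert γ; decide +kernel)

def dmf (l : K9) (e : Bool) (v : M9) : M9 := (l * sg e v.1, l * nn l * sg e v.2)

/-- The image of `dl l e`. -/
def dm (l : K9) (e : Bool) : GA M9 :=
  if h : l = 0 then 1 else mkA (dmf l e) (dmf (sg e l)⁻¹ e) (fun v w => by cases e <;> ext <;> simp [dmf] <;> ring)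
    (by revert l e; decide +kernel) (by revert l e; decide +kernel)

theorem db_apply (v : M9) : db v = (ii * v.1, -(ii * v.2)) := rfl
theorem ng_apply (v : M9) : ng v = -v := rfl
theorem jt_apply (γ : K9) (v : M9) : jt γ v = jf γ v := rfl
theorem jt_inv_apply (γ : K9) (v : M9) : (jt γ)⁻¹ v = -jf γ v := rfl
theorem dm_apply {l : K9} (h : l ≠ 0) (e : Bool) (v : M9) : dm l e v = dmf l e v := by rw [dm, dif_neg h]; rfl

/-- The action of `dl l e` on the parameters of the reflections. -/
def act (l : K9) (e : Bool) (γ : K9) : K9 := cond e (-(l * l * star γ)) (l * l * γ)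

/-! ### The invariants of a fusion system -/

/-- `f` is an `F`-automorphism of `Q` inducing `M` on `Q / Z`. -/
structure EInd (F : FS K9) (f : UG K9 → UG K9) (M : GA M9) : Prop where
  iso : F.Iso (Qs K9) (Qs K9) f
  ind : ∀ g ∈ Qs K9, ((f g).x, (f g).v.b) = M (g.x, g.v.b)

/-- The image of `Aut_F(Q)` on `Q / Z`. -/
def YE (F : FS K9) : Subgroup (GA M9) := closure {M | ∃ f, EInd F f M}

def TT (F : FS K9) : Set K9 := {γ | jt γ ∈ YE F}

def DB (F : FS K9) : Set (K9 × Bool) := {r | r.1 ≠ 0 ∧ dl r.1 r.2 ∈ AF F}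

def PB (F : FS K9) : Set (K9 × Bool) :=
  {r | ∃ α ∈ AF F, (∀ z ∈ Zs K9, α z = z) ∧ ∀ g, (α g).x = r.1 * sg r.2 g.x}

/-- Standard position. -/
structure Std (F : FS K9) : Prop where
  sat : F.IsSaturated 3
  nm : Nm F
  hl : HasL F
  hd : dd ∈ AF F

def B1 : Finset (K9 × Bool) := {(1, false), (-1, false), (ii * ze, true), (-(ii * ze), true)}
def B2 : Finset (K9 × Bool) := B1 ∪ {(ii, false), (-ii, false), (ze, true), (-ze, true)}
def B3 : Finset (K9 × Bool) := {(1, false), (-1, false), (ii, true), (-ii, true)}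
def B4 : Finset (K9 × Bool) := B3 ∪ {(ii, false), (-ii, false), (1, true), (-1, true)}
def B5 : Finset (K9 × Bool) := Finset.univ.filter fun r => r.1 ≠ 0

/-- A realizable standard system with the given invariants exists. -/
def Has (B : Set (K9 × Bool)) (T : Set K9) : Prop := ∃ F : FS K9, Rz 3 F ∧ Std F ∧ DB F = B ∧ TT F = T

/-! ### Generators and words -/

/-- Generators of `S`; those with index `≠ 3` generate `Q`, those with index `< 4` generate `V`. -/
def gen : ℕ → UG K9
  | 0 => jv ⟨1, 0, 0, by simp, by simp⟩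
  | 1 => jv ⟨0, 1, 0, by simp, by simp⟩
  | 2 => jv ⟨0, ze, 0, by simp, by simp⟩
  | 3 => jv ⟨0, 0, 1, by simp, by simp⟩
  | 4 => sx 1
  | _ => sx ze

/-- The normal form of an element in the generators. -/
def word (g : UG K9) : List ℕ :=
  List.replicate g.v.a.code 0 ++ List.replicate (g.v.b.code % 3) 1 ++ List.replicate (g.v.b.code / 3) 2 ++
    List.replicate g.v.c.code 3 ++ List.replicate (g.x.code % 3) 4 ++ List.replicate (g.x.code / 3) 5

/-- The relations of `S`. -/
structure Rel {G : Type*} [Group G] (s : ℕ → G) : Prop where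
  mul : ∀ i < 6, ∀ k < i, s i * s k = Spor.evalW s (word (gen i * gen k))
  cube : ∀ i < 6, s i ^ 3 = 1
  ne : s 0 ≠ 1

end Cfsg.Agent.U4X
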