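import Mathlib
import Cfsg.Agent.U4X.Defs
import Cfsg.Agent.U4F.Grp
import Cfsg.Agent.Spor.LC.HSMcL
import Cfsg.Agent.Spor.CZ.Abs

/-!
# Normalizers in stabilizers of lattice vectors
-/

set_option autoImplicit false
set_option linter.unusedSectionVars false
set_option linter.unusedVariables false

namespace Cfsg.Agent.U4X

open Cfsg Cfsg.FusionSystem Cfsg.Agent.Fus Subgroup Cfsg.Agent.U4F Cfsg.Agent.Cl

open MulAction Cfsg.Agent.Spor Cfsg.Agent.Spor.Leech Cfsg.Agent.Spor.LC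

/-- A basis of the lattice fixed by `j S`. -/
structure Quad (j : UG K9 →* Co0) (u v x y : Λ) : Prop where
  inj : Function.Injective j
  nu : nm u = 48
  nv : nm v = 32
  nx : nm x = 32
  ny : nm y = 32
  uv : ip u v = 24
  ux : ip u x = 24
  uy : ip u y = 24
  vx : ip v x = 16
  vy : ip v y = 16
  xy : ip x y = 8
  fix : ∀ s, j s ∈ St3 u v x ⊓ stabilizer Co0 y
  span : ∀ w : Λ, (∀ s, j s • w = w) → ip u w = 0 → ip v w = 0 → ip x w = 0 → ip y w = 0 → w = 0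
  lw : ∃ W ∈ St3 u v x ⊓ stabilizer Co0 y, W * j (gen 0) = j (jv ⟨1, 1, 1, by simp, by simp⟩) * W
  dw : ∃ D ∈ St3 u v x ⊓ stabilizer Co0 y, D * j (gen 0) = (j (gen 0))⁻¹ * D

/-- The stabilizer of `c` and of the pair `{v, c - v}`. -/
def Hp (c v : Λ) : Subgroup Co0 where
  carrier := {g | g • c = c ∧ (g • v = v ∨ g • v = c - v)}
  one_mem' := ⟨one_smul _ _, Or.inl (one_smul _ _)⟩
  mul_mem' := by
    rintro a b ⟨a1, a2⟩ ⟨b1, b2⟩
    refine ⟨by rw [mul_smul, b1, a1], ?_⟩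
    rcases b2 with b2 | b2 <;> rcases a2 with a2 | a2 <;> simp [mul_smul, b2, a1, a2, smul_sub]
  inv_mem' := by
    rintro a ⟨a1, a2⟩
    refine ⟨inv_smul_eq_iff.2 a1.symm, a2.imp (fun h => inv_smul_eq_iff.2 h.symm) fun h => inv_smul_eq_iff.2 ?_⟩
    rw [smul_sub, a1, h, sub_sub_cancel]

theorem mem_Hp {c v : Λ} {g : Co0} : g ∈ Hp c v ↔ g • c = c ∧ (g • v = v ∨ g • v = c - v) := Iff.rfl

theorem St2_le_Hp (c v : Λ) : St2 c v ≤ Hp c v := fun _ h => ⟨h.1, Or.inl h.2⟩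

/-- The normalizer of `j S` centralizing its centre. -/
abbrev NN (j : UG K9 →* Co0) : Subgroup Co0 := normalizer (j.range : Set Co0) ⊓ centralizer {j (gen 0)}

variable {j : UG K9 →* Co0} {u v x y c : Λ}

theorem cnt_le_two (K : Subgroup Co0) (a b : Λ) (h : ∀ g ∈ K, g • a = a ∨ g • a = b) :
    Nat.card K ≤ 2 * Nat.card (K ⊓ stabilizer Co0 a : Subgroup Co0) := by
  rw [Rank.card_eq_ncard_mul K a]
  refine Nat.mul_le_mul_right _ ((Set.ncard_le_ncard (t := {a, b}) ?_).trans ?_)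
  · rintro _ ⟨g, rfl⟩
    exact h g g.2
  · exact (Set.ncard_insert_le _ _).trans (by rw [Set.ncard_singleton])

theorem cnt_conj (N : Subgroup Co0) (z : Co0) : Nat.card N =
    {y | ∃ g ∈ N, g * z * g⁻¹ = y}.ncard * Nat.card (N ⊓ centralizer {z} : Subgroup Co0) := by
  letI : MulAction Co0 Co0 := MulAction.compHom Co0 (MulAut.conj : Co0 →* MulAut Co0)
  have := Rank.card_eq_ncard_mul N z
  rw [this]
  congr 2
  · ext y
    exact ⟨fun ⟨g, e⟩ => ⟨g, g.2, e⟩, fun ⟨g, m, e⟩ => ⟨⟨g, m⟩, e⟩⟩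
  · congr 2
    ext g
    exact and_congr_right fun _ => mul_inv_eq_iff_eq_mul.trans mem_centralizer_singleton_iff.symm

theorem cnt_ip {g : Co0} {a : Λ} (h : g • a = a) (w : Λ) : ip a (g • w) = ip a w := by
  rw [← ip_smul g a w, h]

namespace Quad

variable (h : Quad j u v x y)
include h

theorem cnt_nm {w : Λ} (hw : ∀ s, j s • w = w) : 72 * nm w =
    (4 * ip u w - ip v w - 2 * ip x w - 2 * ip y w) * ip u w + (-ip u w + 4 * ip v w - ip x w - ip y w) * ip v w +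
    (-2 * ip u w - ip v w + 4 * ip x w + ip y w) * ip x w + (-2 * ip u w - ip v w + ip x w + 4 * ip y w) * ip y w := by
  have := h.span ((72 : ℤ) • w - ((4 * ip u w - ip v w - 2 * ip x w - 2 * ip y w) • u +
    (-ip u w + 4 * ip v w - ip x w - ip y w) • v + (-2 * ip u w - ip v w + 4 * ip x w + ip y w) • x +
    (-2 * ip u w - ip v w + ip x w + 4 * ip y w) • y)) (fun s => by
      have a1 : j s • u = u := (h.fix s).1.1.1
      have a2 : j s • v = v := (h.fix s).1.1.2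
      have a3 : j s • x = x := (h.fix s).1.2
      have a4 : j s • y = y := (h.fix s).2
      simp only [smul_sub, smul_add, smul_comm (j s), hw, a1, a2, a3, a4])
    (by simp only [ip_sub_right, ip_add_right, ip_zsmul_right, ip_self, h.nu, h.uv, h.ux, h.uy]; ring)
    (by simp only [ip_sub_right, ip_add_right, ip_zsmul_right, ip_self, h.nv, ip_comm v u, h.uv, h.vx, h.vy]; ring)
    (by simp only [ip_sub_right, ip_add_right, ip_zsmul_right, ip_self, h.nx, ip_comm x u, ip_comm x v, h.ux, h.vx,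
      h.xy]; ring)
    (by simp only [ip_sub_right, ip_add_right, ip_zsmul_right, ip_self, h.ny, ip_comm y u, ip_comm y v, ip_comm y x,
      h.uy, h.vy, h.xy]; ring)
  have e := congrArg (fun a => ip a w) (sub_eq_zero.1 this)
  simpa only [ip_add_left, ip_zsmul_left, ip_self] using e

theorem cnt_xy {w : Λ} (hw : ∀ s, j s • w = w) (n : nm w = 32) (p : ip u w = 24) (q : ip v w = 16) :
    w = x ∨ w = y := by
  have e := h.cnt_nm hw
  obtain ⟨r, hr⟩ := eight_dvd_ip x w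
  obtain ⟨t, ht⟩ := eight_dvd_ip y w
  rw [n, p, q, hr, ht] at e
  have e2 : 2 * r * r + 2 * t * t + r * t - 8 * r - 8 * t + 2 = 0 := by linarith
  have b1 : -1 ≤ r := by nlinarith [sq_nonneg (r + 4 * t - 16), sq_nonneg (r + 1)]
  have b2 : r ≤ 4 := by nlinarith [sq_nonneg (r + 4 * t - 8), sq_nonneg (r - 5)]
  have b3 : -1 ≤ t := by nlinarith [sq_nonneg (t + 4 * r - 16), sq_nonneg (t + 1)]
  have b4 : t ≤ 4 := by nlinarith [sq_nonneg (t + 4 * r - 8), sq_nonneg (t - 5)]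
  have : r = 4 ∨ t = 4 := by interval_cases r <;> interval_cases t <;> omega
  rcases this with rfl | rfl
  · exact .inl (eq_of_ip_eq h.nx n hr).symm
  · exact .inr (eq_of_ip_eq h.ny n ht).symm

theorem cnt_u {w : Λ} (hw : ∀ s, j s • w = w) (n : nm w = 48) (p : ip v w = 24) (q : ip x w = 24) :
    w = u ∨ w = v + x - u := by
  have e := h.cnt_nm hw
  obtain ⟨r, hr⟩ := eight_dvd_ip u w
  obtain ⟨t, ht⟩ := eight_dvd_ip y w
  rw [n, p, q, hr, ht] at e
  have e2 : 2 * r * r + 2 * t * t - 2 * r * t - 9 * r = 0 := by linarith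
  have b1 : 0 ≤ r := by nlinarith [sq_nonneg (r - 2 * t), sq_nonneg r]
  have b2 : r ≤ 6 := by nlinarith [sq_nonneg (r - 2 * t), sq_nonneg (r - 6)]
  have b3 : -3 ≤ t := by nlinarith [sq_nonneg (r - 2 * t), sq_nonneg (t + 3)]
  have b4 : t ≤ 6 := by nlinarith [sq_nonneg (r - 2 * t), sq_nonneg (t - 6)]
  have : r = 6 ∨ r = 0 := by interval_cases r <;> interval_cases t <;> omega
  rcases this with rfl | rfl
  · refine .inl (sub_eq_zero.1 (nm_eq_zero.1 ?_)).symm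
    rw [nm_sub, hr, n, h.nu]; rfl
  · refine .inr (sub_eq_zero.1 (nm_eq_zero.1 ?_)).symm
    rw [nm_sub, nm_sub, nm_add, ip_sub_left, ip_add_left, ip_add_left, ip_comm v u, ip_comm x u, hr, n, p, q, h.nu, h.nv,
      h.nx, h.vx, h.uv, h.ux]; rfl

omit h in
theorem cnt_fix {g : Co0} (hg : g ∈ NN j) {w : Λ} (hw : ∀ s, j s • w = w) (s : UG K9) : j s • g • w = g • w := by
  obtain ⟨t, ht⟩ := (mem_normalizer_iff''.1 hg.1 (j s)).1 ⟨s, rfl⟩
  exact inv_smul_eq_iff.1 (show g⁻¹ • j s • g • w = w by rw [← mul_smul, ← mul_smul, ← ht, hw])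

theorem cnt_G0 : Nat.card (St3 u v x ⊓ stabilizer Co0 y : Subgroup Co0) = 29160 := by
  have hy : y ∈ V3 u v x 24 16 8 := ⟨h.ny, h.uy, h.vy, h.xy⟩
  obtain ⟨g, rfl, rfl, rfl⟩ := std_UAX h.nu h.nv h.uv (x := x) ⟨h.nx, h.ux, h.vx⟩
  have e := Rank.card_eq_ncard_mul (St3 (g • vU) (g • vA) (g • vX)) y
  obtain ⟨i⟩ := nonempty_St3_smul g vU vA vX
  have o : orbit (St3 (g • vU) (g • vA) (g • vX)) y = V3 (g • vU) (g • vA) (g • vX) 24 16 8 := by
    ext w
    constructor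
    · rintro ⟨⟨a, ha⟩, rfl⟩
      refine ⟨(nm_smul a y).trans hy.1, ?_, ?_, ?_⟩
      · exact (cnt_ip ha.1.1 y).trans hy.2.1
      · exact (cnt_ip ha.1.2 y).trans hy.2.2.1
      · exact (cnt_ip ha.2 y).trans hy.2.2.2
    · intro hw
      obtain ⟨a, ha, e2⟩ := conj_trans3 g (trans24AX (inv_smul_mem_XU hy.1 hy.2.1)
        (inv_smul_mem_XU hw.1 hw.2.1) (by rw [← ip_smul_left, hy.2.2.1])
        (by rw [← ip_smul_left, hw.2.2.1]) (by rw [← ip_smul_left, ← ip_smul_left, hy.2.2.2, hw.2.2.2]))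
      exact ⟨⟨a, ha⟩, e2⟩
  rw [Nat.card_congr i.toEquiv, card_St3_UAX, o, ncard_V3_smul, ncard_112] at e
  omega

/-- Twenty conjugate vectors. -/
def cntV (a : Bool × Option K9) : Hm K9 :=
  let w : Hm K9 := a.2.elim ⟨1, 0, 0, by simp, by simp⟩ fun t => uu t ⟨1, 1, 1, by simp, by simp⟩
  cond a.1 (-w) w

omit h in
theorem cntV_inj : Function.Injective cntV := by
  have : ∀ a b, (cntV a).a = (cntV b).a → (cntV a).b = (cntV b).b → (cntV a).c = (cntV b).c → a = b := by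
    decide +kernel
  exact fun a b e => this a b (e ▸ rfl) (e ▸ rfl) (e ▸ rfl)

theorem cnt_cen :
    Nat.card ((St3 u v x ⊓ stabilizer Co0 y) ⊓ centralizer {j (gen 0)} : Subgroup Co0) ≤ 1458 := by
  have e := cnt_conj (St3 u v x ⊓ stabilizer Co0 y) (j (gen 0))
  obtain ⟨W, mW, eW⟩ := h.lw
  obtain ⟨D, mD, eD⟩ := h.dw
  have k1 : ∀ a, ∃ g ∈ St3 u v x ⊓ stabilizer Co0 y, g * j (gen 0) * g⁻¹ = j (jv (cntV (false, a))) := by
    rintro (_ | t)
    · exact ⟨1, one_mem _, by rw [one_mul, inv_one, mul_one]; rfl⟩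
    · refine ⟨j (sx t) * W, mul_mem (h.fix _) mW, ?_⟩
      rw [mul_assoc _ W, eW, mul_inv_rev, ← mul_assoc, ← mul_assoc, mul_inv_cancel_right, ← map_inv, ← map_mul,
        ← map_mul, conj_jv]
      rfl
  have k2 : ∀ a, ∃ g ∈ St3 u v x ⊓ stabilizer Co0 y, g * j (gen 0) * g⁻¹ = j (jv (cntV a)) := by
    rintro ⟨_ | _, a⟩
    · exact k1 a
    · obtain ⟨g, m, eg⟩ := k1 a
      refine ⟨g * D, mul_mem m mD, ?_⟩
      rw [mul_assoc _ D, eD, mul_inv_rev, ← mul_assoc, ← mul_assoc, mul_inv_cancel_right, ← conj_inv, eg, ← map_inv,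
        jv_inv]
      rfl
  have k3 := Nat.card_le_card_of_injective
    (β := {y' | ∃ g ∈ St3 u v x ⊓ stabilizer Co0 y, g * j (gen 0) * g⁻¹ = y'}) (fun a => ⟨_, k2 a⟩)
    fun a b e => cntV_inj (congrArg UG.v (h.inj (congrArg Subtype.val e)))
  have k4 : Nat.card (Bool × Option K9) = 20 := by rw [Nat.card_eq_fintype_card]; decide +kernel
  rw [k4, Nat.card_coe_set_eq] at k3
  rw [h.cnt_G0] at e
  nlinarith

theorem cnt_three {K : Subgroup Co0} (h1 : K ≤ NN j) (h2 : K ≤ St3 u v x) : Nat.card K ≤ 1458 := by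
  refine le_trans (card_le_of_le ?_) h.cnt_cen
  refine fun g hg => ⟨⟨h2 hg, ?_⟩, (h1 hg).2⟩
  obtain ⟨⟨a, b⟩, c⟩ := h2 hg
  refine (h.cnt_xy (cnt_fix (h1 hg) fun s => (h.fix s).2) ((nm_smul _ _).trans h.ny)
    ((cnt_ip a _).trans h.uy) ((cnt_ip b _).trans h.vy)).resolve_left fun e => ?_
  have := ip_smul g x y
  rw [e, c, ip_self, h.nx, h.xy] at this
  omega

end Quad

theorem Quad.card_uv (h : Quad j u v x y) : Nat.card (St2 u v ⊓ NN j : Subgroup Co0) ≤ 729 * 4 := by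
  have e := cnt_le_two (St2 u v ⊓ NN j) x y fun g hg =>
    h.cnt_xy (Quad.cnt_fix hg.2 fun s => (h.fix s).1.2) ((nm_smul _ _).trans h.nx)
      ((cnt_ip hg.1.1 _).trans h.ux) ((cnt_ip hg.1.2 _).trans h.vx)
  have := h.cnt_three (K := St2 u v ⊓ NN j ⊓ stabilizer Co0 x) (fun _ k => k.1.2) fun _ k => ⟨k.1.1, k.2⟩
  omega

theorem Quad.card_vx (h : Quad j u v x y) : Nat.card (St2 v x ⊓ NN j : Subgroup Co0) ≤ 729 * 4 := by
  have e := cnt_le_two (St2 v x ⊓ NN j) u (v + x - u) fun g hg =>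
    h.cnt_u (Quad.cnt_fix hg.2 fun s => (h.fix s).1.1.1) ((nm_smul _ _).trans h.nu)
      (by rw [cnt_ip hg.1.1, ip_comm, h.uv]) (by rw [cnt_ip hg.1.2, ip_comm, h.ux])
  have := h.cnt_three (K := St2 v x ⊓ NN j ⊓ stabilizer Co0 u) (fun _ k => k.1.2) fun _ k => ⟨⟨k.2, k.1.1.1⟩, k.1.1.2⟩
  omega

theorem card_Hp_le (c v : Λ) (N : Subgroup Co0) :
    Nat.card (Hp c v ⊓ N : Subgroup Co0) ≤ 2 * Nat.card (St2 c v ⊓ N : Subgroup Co0) :=
  (cnt_le_two (Hp c v ⊓ N) v (c - v) fun _ hg => hg.1.2).trans (Nat.mul_le_mul_left _ (card_le_of_le fun _ k =>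
    ⟨⟨k.1.1.1, k.2⟩, k.1.2⟩))

theorem not_dvd_of_le {H : Subgroup Co0} (hv : nm v = 32) (h : H ≤ stabilizer Co0 v) : ¬ 3 ^ 7 ∣ Nat.card H :=
  fun c => absurd (card_stab32 hv ▸ c.trans (card_dvd_of_le h)) (by norm_num)

theorem not_dvd_Hp (hv : nm v = 32) : ¬ 3 ^ 7 ∣ Nat.card (Hp c v) := fun k => by
  have e := Rank.card_eq_ncard_mul (Hp c v) v
  have s : orbit (Hp c v) v ⊆ {v, c - v} := by
    rintro _ ⟨g, rfl⟩
    exact g.2.2
  have b := (Set.ncard_le_ncard s).trans ((Set.ncard_insert_le _ _).trans (by rw [Set.ncard_singleton]))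
  have p : 0 < Nat.card (Hp c v) := Nat.card_pos
  refine not_dvd_of_le hv (inf_le_right (a := Hp c v)) ?_
  generalize (orbit (Hp c v) v).ncard = m at e b
  rw [e] at k p
  interval_cases m
  · omega
  · rwa [one_mul] at k
  · exact (Nat.Coprime.dvd_of_dvd_mul_left (by norm_num) k)

end Cfsg.Agent.U4X
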